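import Mathlib

/-!
# S5210 (U₆(2)): automorphisms induced by normalizers
-/

set_option autoImplicit false

namespace Cfsg.Agent.H12.P4

/-- automorphisms induced by automorphisms of an overgroup -/
theorem exists_autf {P A : Type*} [Group P] [Group A] [Finite P] (j : P →* A) (hj : Function.Injective j) (g : MulAut A)
    (h : ∀ x, ∃ y, g (j x) = j y) : ∃ α : MulAut P, ∀ x, j (α x) = g (j x) := by
  choose f hf using h
  let F : P →* P :=
    { toFun := f
      map_one' := by
        apply hj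
        rw [← hf, map_one, map_one]
      map_mul' := fun x y => by
        apply hj
        rw [← hf, map_mul, map_mul, map_mul, ← hf, ← hf] }
  have hF : Function.Injective F := by
    intro x y hxy
    have h1 : g (j x) = g (j y) := by rw [hf, hf]; exact congrArg j hxy
    exact hj (g.injective h1)
  exact ⟨MulEquiv.ofBijective F (Finite.injective_iff_bijective.1 hF), fun x => (hf x).symm⟩

section

variable {P A B : Type*} [Group P] [Group A] [Group B] [Finite P]

/-- the elements normalizing the image of `j` -/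
def NJ (m : B →* A) (j : P →* A) (hj : Function.Injective j) : Subgroup B where
  carrier := {g | ∀ x, ∃ y, m g * j x * (m g)⁻¹ = j y}
  one_mem' := fun x => ⟨x, by simp⟩
  mul_mem' := by
    intro a b ha hb x
    obtain ⟨y, hy⟩ := hb x
    obtain ⟨z, hz⟩ := ha y
    refine ⟨z, ?_⟩
    rw [map_mul, mul_inv_rev, ← hz, ← hy]
    group
  inv_mem' := by
    intro a ha x
    obtain ⟨α, hα⟩ := exists_autf j hj (MulAut.conj (m a)) ha
    refine ⟨α⁻¹ x, ?_⟩
    have h1 := hα (α⁻¹ x)
    rw [MulAut.apply_inv_self, MulAut.conj_apply] at h1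
    rw [h1, map_inv]
    group

theorem mem_NJ {m : B →* A} {j : P →* A} {hj : Function.Injective j} {g : B} :
    g ∈ NJ m j hj ↔ ∀ x, ∃ y, m g * j x * (m g)⁻¹ = j y := Iff.rfl

/-- the elements centralizing the image of `j` -/
def CJ (m : B →* A) (j : P →* A) : Subgroup B where
  carrier := {g | ∀ x, m g * j x = j x * m g}
  one_mem' := fun x => by simp
  mul_mem' := by
    intro a b ha hb x
    rw [map_mul, mul_assoc, hb x, ← mul_assoc, ha x, mul_assoc]
  inv_mem' := by
    intro a ha x
    rw [map_inv, inv_mul_eq_iff_eq_mul, ← mul_assoc, ha x, mul_inv_cancel_right]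

omit [Finite P] in
theorem mem_CJ {m : B →* A} {j : P →* A} {g : B} : g ∈ CJ m j ↔ ∀ x, m g * j x = j x * m g := Iff.rfl

theorem CJ_le_NJ (m : B →* A) (j : P →* A) (hj : Function.Injective j) : CJ m j ≤ NJ m j hj := by
  intro g hg x
  exact ⟨x, by rw [hg x, mul_inv_cancel_right]⟩

/-- the order of the group of induced automorphisms -/
theorem card_induced (m : B →* A) (hm : Function.Surjective m) (j : P →* A) (hj : Function.Injective j)
    (Γ : Subgroup (MulAut P)) (hΓ : ∀ α, α ∈ Γ ↔ ∃ g : A, ∀ x, j (α x) = g * j x * g⁻¹) :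
    Nat.card (CJ m j) * Nat.card Γ = Nat.card (NJ m j hj) := by
  choose f hf using fun g : NJ m j hj => exists_autf j hj (MulAut.conj (m g)) g.2
  let θ : NJ m j hj →* MulAut P := MonoidHom.mk' f (by
    intro a b
    ext1 x
    apply hj
    rw [MulAut.mul_apply, hf, hf, hf, Subgroup.coe_mul, map_mul, map_mul]
    rfl)
  have hθ : ∀ g x, j (θ g x) = m g * j x * (m g)⁻¹ := fun g x => hf g x
  have hr : θ.range = Γ := by
    ext α
    rw [hΓ]
    constructor
    · rintro ⟨g, rfl⟩
      exact ⟨m g, hθ g⟩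
    · rintro ⟨g, hg⟩
      obtain ⟨b, rfl⟩ := hm g
      refine ⟨⟨b, fun x => ⟨α x, (hg x).symm⟩⟩, ?_⟩
      ext1 x
      apply hj
      rw [hθ, hg]
  have hk : θ.ker = (CJ m j).subgroupOf (NJ m j hj) := by
    ext g
    rw [MonoidHom.mem_ker, Subgroup.mem_subgroupOf, mem_CJ]
    constructor
    · intro h x
      have h1 := hθ g x
      rw [h, MulAut.one_apply] at h1
      rw [eq_mul_inv_iff_mul_eq] at h1
      exact h1.symm
    · intro h
      ext1 x
      apply hj
      rw [hθ, h, mul_inv_cancel_right, MulAut.one_apply]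
  have h1 := θ.ker.card_mul_index
  rw [Subgroup.index_ker, hr, hk, Nat.card_congr (Subgroup.subgroupOfEquivOfLe (CJ_le_NJ m j hj)).toEquiv] at h1
  exact h1

/-- twice as many automorphisms -/
theorem card_double {M : Type*} [Group M] [Finite M] {Γ Γ' : Subgroup M} {f : M} (hf : f ∉ Γ)
    (h : ∀ α, α ∈ Γ' ↔ α ∈ Γ ∨ α * f ∈ Γ) : Nat.card Γ' = 2 * Nat.card Γ := by
  have hle : Γ ≤ Γ' := fun α hα => (h α).2 (Or.inl hα)
  have hfi : f⁻¹ ∈ Γ' := (h _).2 (Or.inr (by rw [inv_mul_cancel]; exact Γ.one_mem))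
  have hf' : f ∈ Γ' := by
    rw [← inv_inv f]
    exact Γ'.inv_mem hfi
  have h1 : (Γ.subgroupOf Γ').index = 2 := by
    rw [Subgroup.index_eq_two_iff]
    refine ⟨⟨f, hf'⟩, fun b => ?_⟩
    rw [Subgroup.mem_subgroupOf, Subgroup.mem_subgroupOf]
    show Xor ((b : M) * f ∈ Γ) ((b : M) ∈ Γ)
    rcases (h b).1 b.2 with hb | hb
    · right
      refine ⟨hb, fun hb' => hf ?_⟩
      have := Γ.mul_mem (Γ.inv_mem hb) hb'
      rwa [inv_mul_cancel_left] at this
    · left
      refine ⟨hb, fun hb' => hf ?_⟩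
      have := Γ.mul_mem (Γ.inv_mem hb') hb
      rwa [inv_mul_cancel_left] at this
  have h2 := (Γ.subgroupOf Γ').card_mul_index
  rw [h1, Nat.card_congr (Subgroup.subgroupOfEquivOfLe hle).toEquiv] at h2
  omega

end

end Cfsg.Agent.H12.P4
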