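import Cfsg.Agent.H12.P4.Fld
import Cfsg.Agent.H12.P4.Coord
import Cfsg.Agent.H776.P4.Grp

/-!
# S5210 (U₆(2)): the group `SU₆(2)`, the scalars, the embedding of `PG K`
-/

set_option autoImplicit false

namespace Cfsg.Agent.H12.P4

open Cfsg.Agent.H776.P4 (PG)

universe u

/-- the index set -/
abbrev N6 : Type := ZMod 3 ⊕ ZMod 3

/-- `SU₆(2)` -/
def SUt : Type := {M : Matrix N6 N6 L // M * M.conjTranspose = 1 ∧ M.det = 1}

namespace SUt

theorem ext' {a b : SUt} (h : a.1 = b.1) : a = b := Subtype.ext h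

instance : Mul SUt := ⟨fun a b => ⟨a.1 * b.1, by
  rw [Matrix.conjTranspose_mul, Matrix.mul_assoc, ← Matrix.mul_assoc b.1, b.2.1, Matrix.one_mul, a.2.1], by
  rw [Matrix.det_mul, a.2.2, b.2.2, one_mul]⟩⟩

instance : One SUt := ⟨⟨1, by rw [Matrix.conjTranspose_one, Matrix.one_mul], Matrix.det_one⟩⟩

theorem star_mul_self (a : SUt) : a.1.conjTranspose * a.1 = 1 := mul_eq_one_comm.1 a.2.1

instance : Inv SUt := ⟨fun a => ⟨a.1.conjTranspose, by
  rw [Matrix.conjTranspose_conjTranspose]; exact a.star_mul_self, by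
  rw [Matrix.det_conjTranspose, a.2.2, star_one]⟩⟩

theorem coe_mul (a b : SUt) : (a * b).1 = a.1 * b.1 := rfl

theorem coe_one : (1 : SUt).1 = 1 := rfl

theorem coe_inv (a : SUt) : (a⁻¹).1 = a.1.conjTranspose := rfl

instance : Group SUt where
  mul_assoc a b c := ext' (Matrix.mul_assoc _ _ _)
  one_mul a := ext' (Matrix.one_mul _)
  mul_one a := ext' (Matrix.mul_one _)
  inv_mul_cancel a := ext' a.star_mul_self

instance : Finite SUt := Subtype.finite

end SUt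

/-- the scalars -/
def Zs : Subgroup SUt where
  carrier := {a | ∃ k : ZMod 3, a.1 = wp k • (1 : Matrix N6 N6 L)}
  one_mem' := ⟨0, by rw [wp_zero, one_smul]; rfl⟩
  mul_mem' := by
    rintro a b ⟨k, hk⟩ ⟨l, hl⟩
    refine ⟨k + l, ?_⟩
    rw [SUt.coe_mul, hk, hl, wp_add, Matrix.smul_mul, Matrix.one_mul, smul_smul]
  inv_mem' := by
    rintro a ⟨k, hk⟩
    refine ⟨-k, ?_⟩
    rw [SUt.coe_inv, hk, Matrix.conjTranspose_smul, Matrix.conjTranspose_one, star_wp]

theorem Zs_comm {a : SUt} (ha : a ∈ Zs) (b : SUt) : a * b = b * a := by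
  obtain ⟨k, hk⟩ := ha
  apply SUt.ext'
  rw [SUt.coe_mul, SUt.coe_mul, hk, Matrix.smul_mul, Matrix.one_mul, Matrix.mul_smul, Matrix.mul_one]

instance : Zs.Normal := ⟨fun a ha b => by rw [← Zs_comm ha b, mul_inv_cancel_right]; exact ha⟩

/-- `PSU₆(2)` -/
abbrev GG : Type := SUt ⧸ Zs

/-- the projection -/
def mk : SUt →* GG := QuotientGroup.mk' Zs

theorem mk_surj : Function.Surjective mk := QuotientGroup.mk'_surjective Zs

theorem mk_eq_iff {a b : SUt} : mk a = mk b ↔ ∃ k : ZMod 3, b.1 = wp k • a.1 := by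
  have h1 : mk a = mk b ↔ a⁻¹ * b ∈ Zs := QuotientGroup.eq
  rw [h1]
  constructor
  · rintro ⟨k, hk⟩
    refine ⟨k, ?_⟩
    have h2 : b = a * (a⁻¹ * b) := by group
    rw [h2, SUt.coe_mul a, hk, Matrix.mul_smul, Matrix.mul_one]
  · rintro ⟨k, hk⟩
    refine ⟨k, ?_⟩
    rw [SUt.coe_mul, hk, Matrix.mul_smul, SUt.coe_inv, SUt.star_mul_self]

/-- the exponents -/
def E0 : AddSubgroup (N6 → ZMod 3) where
  carrier := {e | ∑ i, e i = 0}
  zero_mem' := by simp
  add_mem' := by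
    intro a b ha hb
    show ∑ i, (a i + b i) = 0
    rw [Finset.sum_add_distrib]
    rw [show ∑ i, a i = 0 from ha, show ∑ i, b i = 0 from hb, add_zero]
  neg_mem' := by
    intro a ha
    show ∑ i, (-a i) = 0
    rw [Finset.sum_neg_distrib, show ∑ i, a i = 0 from ha, neg_zero]

theorem mem_E0 {e : N6 → ZMod 3} : e ∈ E0 ↔ ∑ i, e i = 0 := Iff.rfl

/-- monomial elements -/
def mo (π : Equiv.Perm N6) (e : N6 → ZMod 3) (he : e ∈ E0) : SUt :=
  ⟨mm π e, mm_unit π e, by rw [det_mm, mem_E0.1 he]; rfl⟩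

theorem coe_mo (π : Equiv.Perm N6) (e : N6 → ZMod 3) (he : e ∈ E0) : (mo π e he).1 = mm π e := rfl

theorem comp_mem (ρ : Equiv.Perm N6) {e : N6 → ZMod 3} (he : e ∈ E0) : (fun k => e (ρ k)) ∈ E0 := by
  rw [mem_E0] at he ⊢
  rw [Equiv.sum_comp ρ e, he]

theorem mo_mul (π ρ : Equiv.Perm N6) {e f : N6 → ZMod 3} (he : e ∈ E0) (hf : f ∈ E0) :
    mo π e he * mo ρ f hf = mo (π * ρ) (fun k => f k + e (ρ k)) (E0.add_mem hf (comp_mem ρ he)) :=
  SUt.ext' (mm_mul π ρ e f)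

theorem mo_inv (π : Equiv.Perm N6) {e : N6 → ZMod 3} (he : e ∈ E0) :
    (mo π e he)⁻¹ = mo π⁻¹ (fun k => - e (π⁻¹ k)) (E0.neg_mem (comp_mem π⁻¹ he)) :=
  SUt.ext' (mm_star π e)

theorem smul_mm (k : ZMod 3) (π : Equiv.Perm N6) (e : N6 → ZMod 3) : wp k • mm π e = mm π (fun j => e j + k) := by
  ext i j
  rw [Matrix.smul_apply, mm_apply, mm_apply]
  by_cases h : i = π j
  · rw [if_pos h, if_pos h, add_comm, wp_add, smul_eq_mul]
  · rw [if_neg h, if_neg h, smul_zero]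

theorem mk_mo_eq {π ρ : Equiv.Perm N6} {e f : N6 → ZMod 3} {he : e ∈ E0} {hf : f ∈ E0} :
    mk (mo π e he) = mk (mo ρ f hf) ↔ π = ρ ∧ ∃ k, ∀ j, f j = e j + k := by
  rw [mk_eq_iff]
  constructor
  · rintro ⟨k, hk⟩
    rw [coe_mo, coe_mo, smul_mm] at hk
    obtain ⟨h1, h2⟩ := mm_inj hk
    exact ⟨h1.symm, k, fun j => congrFun h2 j⟩
  · rintro ⟨rfl, k, hk⟩
    refine ⟨k, ?_⟩
    rw [coe_mo, coe_mo, smul_mm]
    congr 1
    funext j
    exact hk j

/-! ### The embedding -/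

/-- the exponent vector of the element `(a, b, c)` of `V` -/
def Ev (a b1 b2 c : ZMod 3) : N6 → ZMod 3 :=
  Sum.elim (fun j => - b1 - c + (c - b1) * j - c * j * j) (fun j => a + b2 + c + (b2 - c) * j + c * j * j)

/-- the permutations of the Sylow subgroup -/
def Pr (r1 r2 : ZMod 3) : Equiv.Perm N6 := Equiv.sumCongr (Equiv.addRight r1) (Equiv.addRight r2)

theorem Pr_inl (r1 r2 j : ZMod 3) : Pr r1 r2 (.inl j) = .inl (j + r1) := rfl
theorem Pr_inr (r1 r2 j : ZMod 3) : Pr r1 r2 (.inr j) = .inr (j + r2) := rfl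

theorem Pr_mul (r1 r2 s1 s2 : ZMod 3) : Pr r1 r2 * Pr s1 s2 = Pr (r1 + s1) (r2 + s2) := by
  ext j
  rcases j with j | j
  · rw [Equiv.Perm.mul_apply, Pr_inl, Pr_inl, Pr_inl]; congr 1; ring
  · rw [Equiv.Perm.mul_apply, Pr_inr, Pr_inr, Pr_inr]; congr 1; ring

theorem Pr_zero : Pr 0 0 = 1 := by
  ext j
  rcases j with j | j
  · rw [Pr_inl, add_zero]; rfl
  · rw [Pr_inr, add_zero]; rfl

theorem Pr_inj {r1 r2 s1 s2 : ZMod 3} (h : Pr r1 r2 = Pr s1 s2) : r1 = s1 ∧ r2 = s2 := by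
  have h1 := congrArg (fun π : Equiv.Perm N6 => π (.inl 0)) h
  have h2 := congrArg (fun π : Equiv.Perm N6 => π (.inr 0)) h
  simp only [Pr_inl, Pr_inr, zero_add] at h1 h2
  exact ⟨Sum.inl_injective h1, Sum.inr_injective h2⟩

theorem Ev_mem (a b1 b2 c : ZMod 3) : Ev a b1 b2 c ∈ E0 := by
  rw [mem_E0, Fintype.sum_sum_type]
  show ∑ j : ZMod 3, (- b1 - c + (c - b1) * j - c * j * j) +
    ∑ j : ZMod 3, (a + b2 + c + (b2 - c) * j + c * j * j) = 0
  revert a b1 b2 c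
  decide

theorem Ev_add (a b1 b2 c a' b1' b2' c' : ZMod 3) (j : N6) :
    Ev (a + a') (b1 + b1') (b2 + b2') (c + c') j = Ev a b1 b2 c j + Ev a' b1' b2' c' j := by
  rcases j with j | j
  · show - (b1 + b1') - (c + c') + ((c + c') - (b1 + b1')) * j - (c + c') * j * j = _ + _
    show _ = (- b1 - c + (c - b1) * j - c * j * j) + (- b1' - c' + (c' - b1') * j - c' * j * j)
    ring
  · show (a + a') + (b2 + b2') + (c + c') + ((b2 + b2') - (c + c')) * j + (c + c') * j * j = _ + _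
    show _ = (a + b2 + c + (b2 - c) * j + c * j * j) + (a' + b2' + c' + (b2' - c') * j + c' * j * j)
    ring

/-- the action of `u_r` -/
theorem Ev_act (a b1 b2 c r1 r2 : ZMod 3) (j : N6) :
    Ev (a - (r1 * b1 + r2 * b2) + (r1 * r1 + r2 * r2) * c) (b1 + r1 * c) (b2 + r2 * c) c (Pr r1 r2 j) =
      Ev a b1 b2 c j + (r1 * r1 * c - r1 * b1) := by
  rcases j with j | j
  · rw [Pr_inl]
    show - (b1 + r1 * c) - c + (c - (b1 + r1 * c)) * (j + r1) - c * (j + r1) * (j + r1) =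
      (- b1 - c + (c - b1) * j - c * j * j) + (r1 * r1 * c - r1 * b1)
    have h3 : (3 : ZMod 3) = 0 := rfl
    linear_combination (-(c * j * r1) - r1 * r1 * c) * h3
  · rw [Pr_inr]
    show (a - (r1 * b1 + r2 * b2) + (r1 * r1 + r2 * r2) * c) + (b2 + r2 * c) + c + ((b2 + r2 * c) - c) * (j + r2)
      + c * (j + r2) * (j + r2) = (a + b2 + c + (b2 - c) * j + c * j * j) + (r1 * r1 * c - r1 * b1)
    have h3 : (3 : ZMod 3) = 0 := rfl
    linear_combination (c * j * r2 + r2 * r2 * c) * h3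

theorem Ev_inj {a b1 b2 c a' b1' b2' c' k : ZMod 3} (h : ∀ j, Ev a b1 b2 c j = Ev a' b1' b2' c' j + k) :
    a = a' ∧ b1 = b1' ∧ b2 = b2' ∧ c = c' := by
  have e0 := h (.inl 0)
  have e1 := h (.inl 1)
  have e2 := h (.inl 2)
  have f0 := h (.inr 0)
  have f1 := h (.inr 1)
  have f2 := h (.inr 2)
  simp only [Ev, Sum.elim_inl, Sum.elim_inr] at e0 e1 e2 f0 f1 f2
  have h3 : (3 : ZMod 3) = 0 := rfl
  have hk : k = 0 := by linear_combination -e2 - (b1 + c - b1' - c') * h3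
  subst hk
  have h4 : c = c' := by linear_combination e0 + e1 + e2 + (2 * b1 + 2 * c - 2 * b1' - 2 * c') * h3
  subst h4
  have h5 : b1 = b1' := by linear_combination -e0
  subst h5
  have h6 : a = a' := by linear_combination f2 - (b2 + c - b2' - c) * h3
  subst h6
  have h7 : b2 = b2' := by linear_combination f0
  exact ⟨rfl, rfl, h7, rfl⟩

section emb

variable {K : Type u} [Field K] [StarRing K] (C : Co K)

/-- exponents of an element -/
def ex (x : PG K) : N6 → ZMod 3 := fun j =>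
  Ev (C.re x.a) (C.re x.b) (C.im x.b) (C.re x.c) (Pr (C.re x.r) (C.im x.r) j)

theorem ex_mem (x : PG K) : ex C x ∈ E0 := comp_mem _ (Ev_mem _ _ _ _)

/-- the lift of the embedding -/
def io (x : PG K) : SUt := mo (Pr (C.re x.r) (C.im x.r)) (ex C x) (ex_mem C x)

theorem io_mul (x y : PG K) : mk (io C (x * y)) = mk (io C x) * mk (io C y) := by
  rw [← map_mul, io, io, io, mo_mul, mk_mo_eq]
  have hr1 : C.re (x * y).r = C.re x.r + C.re y.r := by rw [PG.mul_r, C.re_add]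
  have hr2 : C.im (x * y).r = C.im x.r + C.im y.r := by rw [PG.mul_r, C.im_add]
  refine ⟨by rw [Pr_mul, hr1, hr2], ?_⟩
  have hc : C.re (x * y).c = C.re x.c + C.re y.c := by rw [PG.mul_c, C.re_add]
  have himc : C.im y.c = 0 := C.im_fix y.hc
  have hb1 : C.re (x * y).b = C.re x.b + (C.re y.b + C.re x.r * C.re y.c) := by
    rw [PG.mul_b, C.re_add, C.re_add, C.re_mul, himc]; ring
  have hb2 : C.im (x * y).b = C.im x.b + (C.im y.b + C.im x.r * C.re y.c) := by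
    rw [PG.mul_b, C.im_add, C.im_add, C.im_mul, himc]; ring
  have ha : C.re (x * y).a = C.re x.a + (C.re y.a - (C.re x.r * C.re y.b + C.im x.r * C.im y.b) +
      (C.re x.r * C.re x.r + C.im x.r * C.im x.r) * C.re y.c) := by
    rw [PG.mul_a]
    simp only [C.re_add, C.re_mul, C.im_mul, C.re_star, C.im_star, himc]
    have h3 : (3 : ZMod 3) = 0 := rfl
    linear_combination (C.re x.r * C.re y.b + C.im x.r * C.im y.b) * h3
  refine ⟨-(C.re x.r * C.re x.r * C.re y.c - C.re x.r * C.re y.b), fun j => ?_⟩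
  show ex C y j + ex C x (Pr (C.re y.r) (C.im y.r) j) = ex C (x * y) j + _
  have hj : Pr (C.re (x * y).r) (C.im (x * y).r) j =
      Pr (C.re x.r) (C.im x.r) (Pr (C.re y.r) (C.im y.r) j) := by
    rw [hr1, hr2, ← Pr_mul, Equiv.Perm.mul_apply]
  rw [ex, ex, ex, hj, ha, hb1, hb2, hc, Ev_add, Ev_act]
  ring

/-- **The embedding.** -/
def io6 : PG K →* GG where
  toFun x := mk (io C x)
  map_one' := by
    have h := io_mul C 1 1
    rw [mul_one] at h
    exact left_eq_mul.1 h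
  map_mul' x y := io_mul C x y

theorem io6_apply (x : PG K) : io6 C x = mk (io C x) := rfl

theorem io6_injective : Function.Injective (io6 C) := by
  intro x y h
  rw [io6_apply, io6_apply, io, io, mk_mo_eq] at h
  obtain ⟨h1, k, h2⟩ := h
  obtain ⟨h3, h4⟩ := Pr_inj h1
  have h5 : ∀ j, Ev (C.re y.a) (C.re y.b) (C.im y.b) (C.re y.c) j =
      Ev (C.re x.a) (C.re x.b) (C.im x.b) (C.re x.c) j + k := by
    intro j
    have h6 := h2 ((Pr (C.re x.r) (C.im x.r))⁻¹ j)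
    rw [ex, ex, ← h1] at h6
    have h7 : Pr (C.re x.r) (C.im x.r) ((Pr (C.re x.r) (C.im x.r))⁻¹ j) = j :=
      (Pr (C.re x.r) (C.im x.r)).apply_symm_apply j
    rw [h7] at h6
    exact h6
  obtain ⟨ha, hb1, hb2, hc⟩ := Ev_inj h5
  apply PG.ext
  · exact C.ext _ _ h3 h4
  · exact C.ext _ _ ha.symm (by rw [C.im_fix x.ha, C.im_fix y.ha])
  · exact C.ext _ _ hb1.symm hb2.symm
  · exact C.ext _ _ hc.symm (by rw [C.im_fix x.hc, C.im_fix y.hc])

end emb

end Cfsg.Agent.H12.P4
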